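import Cfsg.Agent.Char.Galois
import Cfsg.Agent.Char.Det
import Cfsg.Agent.Block.Part
import Cfsg.Agent.Known.GLSim

/-! The determinant of the matrix of all matrix coefficients of the irreducible representations. -/

set_option autoImplicit false

open Cfsg Cfsg.Lib Cfsg.Lib.Char Matrix
open scoped Kronecker

namespace Cfsg.Lib.OD4

namespace Det

variable {G : Type*} [Group G]

theorem conj_of_trace [Finite G] {n : ℕ} (R R' : G →* Matrix (Fin n) (Fin n) ℂ)
    (h : ∀ g, (R g).trace = (R' g).trace) :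
    ∃ A B : Matrix (Fin n) (Fin n) ℂ, A * B = 1 ∧ ∀ g, R' g = A * R g * B := by
  let F : Matrix (Fin n) (Fin n) ℂ →* Module.End ℂ (Fin n → ℂ) :=
    (Matrix.toLinAlgEquiv' (R := ℂ) (n := Fin n)).toMonoidHom
  obtain ⟨e⟩ := Cfsg.Agent.S0153.result (F.comp R) (F.comp R') (funext fun g => by
    change LinearMap.trace ℂ _ (Matrix.toLin' (R g)) = LinearMap.trace ℂ _ (Matrix.toLin' (R' g))
    rw [Matrix.trace_toLin'_eq, Matrix.trace_toLin'_eq, h])
  refine ⟨LinearMap.toMatrix' e.toLinearEquiv.toLinearMap,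
    LinearMap.toMatrix' e.toLinearEquiv.symm.toLinearMap, ?_, fun g => ?_⟩
  · rw [← LinearMap.toMatrix'_comp, LinearEquiv.comp_symm, LinearMap.toMatrix'_id]
  · have := congrArg LinearMap.toMatrix' (e.conj_apply_self g)
    rw [LinearEquiv.conj_apply, LinearMap.toMatrix'_comp, LinearMap.toMatrix'_comp] at this
    change _ * LinearMap.toMatrix' (Matrix.toLin' (R g)) * _ =
      LinearMap.toMatrix' (Matrix.toLin' (R' g)) at this
    rw [LinearMap.toMatrix'_toLin', LinearMap.toMatrix'_toLin'] at this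
    exact this.symm

theorem exists_mat (χ : IrrCharacter G) : ∃ R : G →* Matrix (Fin (charDegree (χ : G → ℂ)))
    (Fin (charDegree (χ : G → ℂ))) ℂ, ∀ g, (R g).trace = (χ : G → ℂ) g := by
  obtain ⟨χ, n, ρ, hρ, rfl⟩ := χ
  have : charDegree ρ.character = n := by simp [charDegree]
  change ∃ R : G →* Matrix (Fin (charDegree ρ.character)) (Fin (charDegree ρ.character)) ℂ,
    ∀ g, (R g).trace = ρ.character g
  rw [this]
  refine ⟨(LinearMap.toMatrixAlgEquiv' (R := ℂ) (n := Fin n)).toMonoidHom.comp ρ, fun g => ?_⟩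
  change (LinearMap.toMatrix' (ρ g)).trace = LinearMap.trace ℂ _ (ρ g)
  rw [← Matrix.trace_toLin'_eq, Matrix.toLin'_toMatrix']

variable {ι : Type*} {n : ι → ℕ}

theorem sig_ext {x y : Σ i, Fin (n i) × Fin (n i)} (h1 : x.1 = y.1) (h2 : x.2.1.val = y.2.1.val)
    (h3 : x.2.2.val = y.2.2.val) : x = y := by
  obtain ⟨a, b, c⟩ := x
  obtain ⟨a', b', c'⟩ := y
  obtain rfl : a = a' := h1
  obtain rfl : b = b' := Fin.ext h2
  obtain rfl : c = c' := Fin.ext h3
  rfl

variable [Fintype ι] [DecidableEq ι]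

theorem indep [Finite G] (e : (Σ i, Fin (n i) × Fin (n i)) → G)
    (R R' : ∀ i, G →* Matrix (Fin (n i)) (Fin (n i)) ℂ)
    (h : ∀ i g, (R i g).trace = (R' i g).trace) :
    (of fun x y : Σ i, Fin (n i) × Fin (n i) => R' x.1 (e y) x.2.1 x.2.2).det =
      (of fun x y : Σ i, Fin (n i) × Fin (n i) => R x.1 (e y) x.2.1 x.2.2).det := by
  choose A B hAB hR using fun i => conj_of_trace (R i) (R' i) (h i)
  have : (of fun x y : Σ i, Fin (n i) × Fin (n i) => R' x.1 (e y) x.2.1 x.2.2) =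
      blockDiagonal' (fun i => A i ⊗ₖ (B i)ᵀ) *
        of fun x y : Σ i, Fin (n i) × Fin (n i) => R x.1 (e y) x.2.1 x.2.2 := by
    ext ⟨i, a, b⟩ y
    rw [Matrix.mul_apply, Fintype.sum_sigma, Finset.sum_eq_single i]
    · simp only [of_apply, blockDiagonal'_apply_eq, hR, Matrix.mul_apply, Fintype.sum_prod_type,
        kroneckerMap_apply, transpose_apply, Finset.sum_mul]
      rw [Finset.sum_comm]
      exact Finset.sum_congr rfl fun _ _ => Finset.sum_congr rfl fun _ _ => by ring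
    · intro j _ hj
      exact Finset.sum_eq_zero fun k _ => by rw [blockDiagonal'_apply_ne _ _ _ hj.symm, zero_mul]
    · simp
  rw [this, det_mul, Known.det_blockDiagonal', Finset.prod_eq_one, one_mul]
  intro i _
  rw [det_kronecker, det_transpose, ← mul_pow, ← det_mul, hAB, det_one, one_pow]

theorem sign_lift (π : Equiv.Perm ι) (hn : ∀ i, n (π i) = n i) (ho : ∀ i, ¬ 2 ∣ n i → π i = i) :
    ∃ p : Equiv.Perm (Σ i, Fin (n i) × Fin (n i)), Equiv.Perm.sign p = 1 ∧
      ∀ x, p x = ⟨π x.1, x.2.1.cast (hn _).symm, x.2.2.cast (hn _).symm⟩ := by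
  have hn' : ∀ i, n (π.symm i) = n i := fun i => by rw [← hn (π.symm i), π.apply_symm_apply]
  have mf : ∀ (r : ℕ) (f : ι → ι), (∀ i, n (f i) = n i) →
      ∃ q : (Σ i, Fin (n i) × Fin (n i)) → Σ i, Fin (n i) × Fin (n i), ∀ x,
      (q x).1 = (if x.2.1.val % 2 = r then f x.1 else x.1) ∧ (q x).2.1.val = x.2.1.val ∧
        (q x).2.2.val = x.2.2.val := fun r f hf => by
    have : ∀ x : Σ i, Fin (n i) × Fin (n i),
        n x.1 = n (if x.2.1.val % 2 = r then f x.1 else x.1) := fun x => by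
      split_ifs; exacts [(hf _).symm, rfl]
    exact ⟨fun x => ⟨_, x.2.1.cast (this x), x.2.2.cast (this x)⟩, fun x => ⟨rfl, rfl, rfl⟩⟩
  have mk : ∀ r : ℕ, ∃ p : Equiv.Perm (Σ i, Fin (n i) × Fin (n i)), ∀ x,
      (p x).1 = (if x.2.1.val % 2 = r then π x.1 else x.1) ∧ (p x).2.1.val = x.2.1.val ∧
        (p x).2.2.val = x.2.2.val := fun r => by
    obtain ⟨q, hq⟩ := mf r π hn
    obtain ⟨q', hq'⟩ := mf r π.symm hn'
    refine ⟨⟨q, q', fun x => sig_ext ?_ ?_ ?_, fun x => sig_ext ?_ ?_ ?_⟩, hq⟩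
    · rw [(hq' _).1, (hq _).2.1, (hq _).1]; split_ifs <;> simp
    · rw [(hq' _).2.1, (hq _).2.1]
    · rw [(hq' _).2.2, (hq _).2.2]
    · rw [(hq _).1, (hq' _).2.1, (hq' _).1]; split_ifs <;> simp
    · rw [(hq _).2.1, (hq' _).2.1]
    · rw [(hq _).2.2, (hq' _).2.2]
  obtain ⟨α, hα⟩ := mk 0
  obtain ⟨β, hβ⟩ := mk 1
  have k : ∀ x : Σ i, Fin (n i) × Fin (n i), ∃ y : Σ i, Fin (n i) × Fin (n i), y.1 = x.1 ∧
      y.2.2.val = x.2.2.val ∧ y.2.1.val = if 2 ∣ n x.1 then
        (if x.2.1.val % 2 = 0 then x.2.1.val + 1 else x.2.1.val - 1) else x.2.1.val := fun x =>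
    ⟨⟨x.1, ⟨if 2 ∣ n x.1 then (if x.2.1.val % 2 = 0 then x.2.1.val + 1 else x.2.1.val - 1)
      else x.2.1.val, by have := x.2.1.2; split_ifs <;> omega⟩, x.2.2⟩, rfl, rfl, rfl⟩
  choose κ k1 k2 k3 using k
  have hκ : Function.Involutive κ := fun x => by
    refine sig_ext (by rw [k1, k1]) ?_ (by rw [k2, k2])
    rw [k3, k3, k1]; split_ifs <;> omega
  have e : β = hκ.toPerm κ * α * hκ.toPerm κ := by
    ext1 x
    change β x = κ (α (κ x))
    have a := hα (κ x)
    have hd : n (α (κ x)).1 = n x.1 := by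
      rw [a.1]; split_ifs
      exacts [(hn _).trans (congrArg n (k1 x)), congrArg n (k1 x)]
    refine sig_ext ?_ ?_ (by rw [(hβ x).2.2, k2, a.2.2, k2])
    · rw [(hβ x).1, k1, a.1, k3, k1]
      by_cases h2 : 2 ∣ n x.1
      · simp only [h2, if_true]; split_ifs <;> first | rfl | omega
      · simp [ho _ h2]
    · rw [(hβ x).2.1, k3, a.2.1, hd, k3]; split_ifs <;> omega
  refine ⟨α * β, ?_, fun x => ?_⟩
  · rw [e, map_mul, map_mul, map_mul, mul_right_comm (Equiv.Perm.sign (hκ.toPerm κ)),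
      Int.units_mul_self, one_mul, Int.units_mul_self]
  · change α (β x) = _
    refine sig_ext ?_ (by rw [(hα _).2.1, (hβ _).2.1]; rfl) (by rw [(hα _).2.2, (hβ _).2.2]; rfl)
    rw [(hα _).1, (hβ _).2.1, (hβ _).1]
    split_ifs <;> first | rfl | omega

theorem sign_swap : ∃ p : Equiv.Perm (Σ i, Fin (n i) × Fin (n i)),
    Equiv.Perm.sign p = (-1) ^ ((∑ i, n i * n i - ∑ i, n i) / 2) ∧ ∀ x, p x = ⟨x.1, x.2.2, x.2.1⟩ := by
  have hi : Function.Involutive fun x : Σ i, Fin (n i) × Fin (n i) =>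
      (⟨x.1, x.2.2, x.2.1⟩ : Σ i, Fin (n i) × Fin (n i)) := fun _ => rfl
  refine ⟨hi.toPerm _, ?_, fun _ => rfl⟩
  rw [Equiv.Perm.sign_of_pow_two_eq_one (σ := hi.toPerm _) (Equiv.ext hi)]
  congr 3
  · simp
  · have : Function.Bijective fun y : Σ i, Fin (n i) =>
        (⟨⟨y.1, y.2, y.2⟩, rfl⟩ : Function.fixedPoints (hi.toPerm _)) := by
      refine ⟨fun ⟨a, b⟩ ⟨c, d⟩ h => ?_, fun ⟨⟨a, b, c⟩, h⟩ => ⟨⟨a, b⟩, Subtype.ext ?_⟩⟩
      · obtain rfl : a = c := congrArg (fun z => z.1.1) h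
        obtain rfl : b = d := Fin.ext (congrArg (fun z => z.1.2.1.val) h)
        rfl
      · exact sig_ext rfl rfl (congrArg (fun z => z.2.2.val) h)
    rw [← Fintype.card_of_bijective this]
    simp

theorem sign_inv [Fintype G] [DecidableEq G] : Equiv.Perm.sign (Equiv.inv G) =
    (-1) ^ ((Nat.card G - (Nat.card {x : G // orderOf x = 2} + 1)) / 2) := by
  rw [Equiv.Perm.sign_of_pow_two_eq_one (Equiv.ext inv_inv), Nat.card_eq_fintype_card,
    ← Finite.card_option, ← Nat.card_eq_fintype_card (α := Function.fixedPoints _)]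
  congr 3
  have key : ∀ x : G, x⁻¹ = x ↔ x = 1 ∨ orderOf x = 2 := fun x => by
    rw [inv_eq_iff_mul_eq_one, ← sq, ← orderOf_dvd_iff_pow_eq_one, Nat.dvd_prime Nat.prime_two,
      orderOf_eq_one_iff]
  symm
  refine Nat.card_congr (Equiv.ofBijective (fun o => o.elim ⟨1, inv_one⟩
    fun x => ⟨x.1, (key _).2 (.inr x.2)⟩) ⟨?_, fun ⟨x, hx⟩ => ?_⟩)
  · rintro (_ | ⟨a, ha⟩) (_ | ⟨b, hb⟩) h
    · rfl
    · obtain rfl : 1 = b := congrArg Subtype.val h
      simp at hb
    · obtain rfl : a = 1 := congrArg Subtype.val h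
      simp at ha
    · obtain rfl : a = b := congrArg Subtype.val h
      rfl
  · rcases (key x).1 hx with rfl | h
    exacts [⟨none, rfl⟩, ⟨some ⟨x, h⟩, rfl⟩]

omit [Fintype ι] in
theorem num (s : Finset ι) : ((∏ i ∈ s, n i ^ (n i * n i % 2)) + ∑ i ∈ s, n i % 2) % 4 =
      (1 + ∑ i ∈ s, n i % 2 * n i) % 4 ∧
    (∑ i ∈ s, n i * n i + 2 * ∑ i ∈ s, n i % 2 * n i) % 8 =
      (∑ i ∈ s, n i % 2 + 2 * ∑ i ∈ s, n i) % 8 ∧ (∏ i ∈ s, n i ^ (n i * n i % 2)) % 2 = 1 := by
  induction s using Finset.induction_on with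
  | empty => simp
  | insert a s ha ih =>
    simp only [Finset.prod_insert ha, Finset.sum_insert ha]
    obtain ⟨h1, h2, h3⟩ := ih
    generalize (∏ i ∈ s, n i ^ (n i * n i % 2)) = P at *
    obtain ⟨q, r, hr, e⟩ : ∃ q r, r < 4 ∧ n a = 4 * q + r :=
      ⟨n a / 4, n a % 4, Nat.mod_lt _ (by norm_num), (Nat.div_add_mod _ _).symm⟩
    have e2 : n a * n a = 8 * (2 * q * q + q * r) + r * r := by rw [e]; ring
    have e3 : n a * P = 4 * (q * P) + r * P := by rw [e]; ring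
    rcases Nat.mod_two_eq_zero_or_one (n a) with h | h
    · have : n a * n a % 2 = 0 := by rw [Nat.mul_mod, h]
      rw [this, h, pow_zero, one_mul, zero_mul]
      interval_cases r <;> omega
    · have : n a * n a % 2 = 1 := by rw [Nat.mul_mod, h]
      rw [this, h, pow_one, one_mul]
      interval_cases r <;> omega

end Det

open Det in
theorem delta {G : Type*} [Group G] [Finite G] (h8 : 8 ∣ Nat.card G)
    (hΩ : Nat.card {x : G // orderOf x = 2} % 4 = 3)
    (h4 : Nat.card {χ : IrrCharacter G // ¬ 2 ∣ charDegree (χ : G → ℂ)} = 4) :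
    ∃ (δ : ℂ) (d : ℤ), δ ^ 2 = d ∧ d % 4 = 3 ∧ ∀ σ : ℂ ≃+* ℂ, (∀ χ : IrrCharacter G,
      ¬ 2 ∣ charDegree (χ : G → ℂ) → ∀ g, σ ((χ : G → ℂ) g) = (χ : G → ℂ) g) → σ δ = δ := by
  classical
  have := Fintype.ofFinite G
  set n : IrrCharacter G → ℕ := fun χ => charDegree (χ : G → ℂ) with hn
  have hc : ∀ χ, (n χ : ℂ) = (χ : G → ℂ) 1 := Block.irr_charDegree_cast
  have hp : ∀ χ, (n χ : ℂ) ≠ 0 := fun χ => Nat.cast_ne_zero.2 (Block.irr_charDegree_pos χ).ne'
  have hN : (Nat.card G : ℂ) ≠ 0 := Nat.cast_ne_zero.2 Nat.card_pos.ne'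
  have hs : ∑ χ, n χ * n χ = Nat.card G := by
    apply Nat.cast_injective (R := ℂ)
    rw [← sum_irr_degree_sq]; push_cast
    exact Finset.sum_congr rfl fun χ _ => by rw [hc, sq]
  have ho : ∑ χ, n χ % 2 = 4 := by
    rw [← h4, Nat.subtype_card (Finset.univ.filter fun χ => ¬ 2 ∣ n χ) (by simp [hn]),
      Finset.card_filter]
    exact Finset.sum_congr rfl fun χ _ => by split_ifs <;> omega
  obtain ⟨e⟩ : Nonempty ((Σ χ, Fin (n χ) × Fin (n χ)) ≃ G) :=
    Fintype.card_eq.1 (by rw [← Nat.card_eq_fintype_card (α := G), ← hs]; simp)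
  choose R hR using exists_mat (G := G)
  set A : Matrix _ _ ℂ := of fun x y : Σ χ, Fin (n χ) × Fin (n χ) => R x.1 (e y) x.2.1 x.2.2
    with hA
  obtain ⟨τ, sτ, hτ⟩ := sign_swap (n := n)
  have h1 : (Aᵀ.submatrix (e.symm.permCongr (Equiv.inv G)) id).submatrix id τ *
      diagonal (fun x => (n x.1 : ℂ) / Nat.card G) * A = 1 := by
    ext x y
    have := sum_irr_degree_mul ((e x)⁻¹ * e y)
    replace this := this.trans (if_congr (inv_mul_eq_one.trans e.injective.eq_iff) rfl rfl)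
    rw [Matrix.mul_apply, Fintype.sum_sigma, one_apply, ← mul_left_inj' hN, Finset.sum_mul, ite_mul,
      one_mul, zero_mul, ← this]
    refine Finset.sum_congr rfl fun χ _ => ?_
    rw [← hc, ← hR, map_mul, Matrix.trace, Fintype.sum_prod_type, Finset.sum_comm, Finset.sum_mul,
      Finset.mul_sum]
    refine Finset.sum_congr rfl fun j _ => ?_
    rw [diag_apply, Matrix.mul_apply, Finset.sum_mul, Finset.mul_sum]
    refine Finset.sum_congr rfl fun i _ => ?_
    simp only [mul_diagonal, submatrix_apply, id, hτ, transpose_apply, hA, of_apply,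
      Equiv.permCongr_apply, Equiv.symm_symm, Equiv.apply_symm_apply, Equiv.inv_apply]
    field_simp
  have h2 := congrArg det h1
  rw [det_mul, det_mul, det_permute', det_permute, det_transpose, det_diagonal, det_one,
    Equiv.Perm.sign_permCongr, sign_inv, sτ, Fintype.prod_sigma, hs] at h2
  simp only [Finset.prod_const, Finset.card_univ, Fintype.card_prod, Fintype.card_fin, div_pow,
    Finset.prod_div_distrib, Finset.prod_pow_eq_pow_sum, hs] at h2
  have h0 : A.det ≠ 0 := fun h => by simp [h] at h2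
  obtain ⟨m, hm⟩ := h8
  obtain ⟨n1, n2, n3⟩ := num (n := n) Finset.univ
  have hle : ∑ χ, n χ ≤ Nat.card G := hs ▸ Finset.sum_le_sum fun χ _ => Nat.le_mul_self _
  have hlt : Nat.card {x : G // orderOf x = 2} ≤ Nat.card G := Finite.card_subtype_le _
  have hq : (∏ χ, (n χ : ℂ) ^ (n χ * n χ)) =
      (∏ χ, (n χ : ℂ) ^ (n χ * n χ / 2)) ^ 2 * ((∏ χ, n χ ^ (n χ * n χ % 2) : ℕ) : ℂ) := by
    push_cast
    rw [← Finset.prod_pow, ← Finset.prod_mul_distrib]
    exact Finset.prod_congr rfl fun χ _ => by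
      rw [← pow_mul, ← pow_add, mul_comm (_ / 2), Nat.div_add_mod]
  have hQ : (∏ χ, (n χ : ℂ) ^ (n χ * n χ / 2)) ≠ 0 :=
    Finset.prod_ne_zero_iff.2 fun χ _ => pow_ne_zero _ (hp χ)
  have ev : Even ((Nat.card G - (Nat.card {x : G // orderOf x = 2} + 1)) / 2) := by
    rw [Nat.even_iff]; omega
  rw [ev.neg_one_pow, hq] at h2
  refine ⟨(Nat.card G : ℂ) ^ (4 * m) / (A.det * ∏ χ, (n χ : ℂ) ^ (n χ * n χ / 2)),
    (-1) ^ ((Nat.card G - ∑ χ, n χ) / 2) * ((∏ χ, n χ ^ (n χ * n χ % 2) : ℕ) : ℤ), ?_, ?_,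
    fun σ hσ => ?_⟩
  · rw [div_pow, ← pow_mul, show 4 * m * 2 = Nat.card G by omega, div_eq_iff
      (pow_ne_zero _ (mul_ne_zero h0 hQ)), Int.cast_mul, Int.cast_natCast]
    simp only [Units.val_pow_eq_pow_val, Units.val_neg, Units.val_one, Int.cast_pow, Int.cast_neg,
      Int.cast_one] at h2 ⊢
    rw [← mul_div_assoc, div_mul_eq_mul_div, div_eq_one_iff_eq (pow_ne_zero _ hN)] at h2
    linear_combination -h2
  · rw [hs, ho] at *
    rcases Nat.even_or_odd ((Nat.card G - ∑ χ, n χ) / 2) with h | h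
    · rw [h.neg_one_pow]; rw [Nat.even_iff] at h; omega
    · rw [h.neg_one_pow]; rw [Nat.odd_iff] at h; omega
  · let π : Equiv.Perm (IrrCharacter G) :=
      ⟨fun χ => ⟨_, χ.2.ringHom_comp σ.toRingHom⟩, fun χ => ⟨_, χ.2.ringHom_comp σ.symm.toRingHom⟩,
        fun χ => Subtype.ext (funext fun g => σ.symm_apply_apply _),
        fun χ => Subtype.ext (funext fun g => σ.apply_symm_apply _)⟩
    have hπ : ∀ χ g, (π χ : G → ℂ) g = σ ((χ : G → ℂ) g) := fun _ _ => rfl
    have hd : ∀ χ, n (π χ) = n χ := fun χ => by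
      apply Nat.cast_injective (R := ℂ)
      rw [hc, hπ, ← hc, map_natCast]
    obtain ⟨p, sp, hp'⟩ := sign_lift π hd fun χ h => Subtype.ext (funext (hσ χ h))
    have := indep e (fun χ => (reindexAlgEquiv ℂ ℂ (finCongr (hd χ))).toMonoidHom.comp (R (π χ)))
      (fun χ => (σ.toRingHom.mapMatrix).toMonoidHom.comp (R χ)) fun χ g => by
        change ((R (π χ) g).submatrix (finCongr (hd χ)).symm (finCongr (hd χ)).symm).trace =
          ((R χ g).map σ.toRingHom).trace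
        rw [← AddMonoidHom.map_trace, hR]
        exact (((finCongr (hd χ)).symm.sum_comp fun i => R (π χ) g i i).trans (hR (π χ) g)).trans
          (hπ χ g)
    have e2 : σ A.det = A.det := by
      refine (σ.toRingHom.map_det A).trans (this.trans ?_)
      have := det_permute p A
      rw [sp, Units.val_one, Int.cast_one, one_mul] at this
      rw [← this]
      congr 1
      ext x y
      simp only [submatrix_apply, hp', hA, of_apply, id]
      rfl
    simp only [map_div₀, map_mul, map_pow, map_prod, map_natCast, e2]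

end Cfsg.Lib.OD4
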