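import Cfsg.Agent.Char.Galois
import Cfsg.Agent.Char.Det
import Cfsg.Agent.Char.Cyclo
import Cfsg.Agent.Char.Irr
import Cfsg.Agent.Block.Part

/-!
# Four characters of odd degree permuted by a quadratic field automorphism are linear
-/

set_option autoImplicit false
set_option linter.unusedSectionVars false

open Cfsg Cfsg.Lib Cfsg.Lib.Char

namespace Cfsg.Lib.OD4

namespace Lin

theorem tri {α : Type*} {f : α → α} (hf : Function.Injective f) {x y z : α} (xy : x ≠ y) (xz : x ≠ z)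
    (yz : y ≠ z) (hx : f x = x ∨ f x = y ∨ f x = z) (hy : f y = x ∨ f y = y ∨ f y = z)
    (hz : f z = x ∨ f z = y ∨ f z = z)
    (h3 : ¬ (f (f (f x)) = x ∧ f (f (f y)) = y ∧ f (f (f z)) = z)) :
    (f x = x ∧ f y = z ∧ f z = y) ∨ (f y = y ∧ f x = z ∧ f z = x) ∨ (f z = z ∧ f x = y ∧ f y = x) := by
  rcases hx with hx | hx | hx <;> rcases hy with hy | hy | hy <;> rcases hz with hz | hz | hz <;>
    first
    | exact absurd (hf (hx.trans hy.symm)) xy
    | exact absurd (hf (hx.trans hz.symm)) xz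
    | exact absurd (hf (hy.trans hz.symm)) yz
    | exact .inl ⟨hx, hy, hz⟩
    | exact .inr (.inl ⟨hy, hx, hz⟩)
    | exact .inr (.inr ⟨hz, hx, hy⟩)
    | exact absurd ⟨by simp only [hx, hy, hz], by simp only [hx, hy, hz], by simp only [hx, hy, hz]⟩ h3

theorem half {z : ℂ} (hz : IsIntegral ℤ z) : 2 * z ≠ 1 := fun h => by
  obtain ⟨n, rfl⟩ := exists_int_of_isIntegral_of_rat hz (q := 1 / 2) (by
    push_cast; linear_combination h / 2)
  have : (2 * n : ℤ) = 1 := by exact_mod_cast h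
  omega

theorem even {a t N d : ℤ} (h3 : d % 4 = 3) (h : a ^ 2 = (t ^ 2 - 4 * N) * d) : 2 ∣ t := by
  by_contra k
  obtain ⟨s, rfl⟩ : ∃ s, t = 2 * s + 1 := ⟨t / 2, by omega⟩
  obtain ⟨e, rfl⟩ : ∃ e, d = 4 * e + 3 := ⟨d / 4, by omega⟩
  obtain ⟨b, hb | hb⟩ : ∃ b, a = 2 * b ∨ a = 2 * b + 1 := ⟨a / 2, by omega⟩
  · have : 4 * (b ^ 2 - (s ^ 2 + s - N) * (4 * e + 3) - e) = 3 := by rw [hb] at h; linear_combination h
    omega
  · have : 4 * (b ^ 2 + b - (s ^ 2 + s - N) * (4 * e + 3) - e) = 2 := by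
      rw [hb] at h; linear_combination h
    omega

variable {G : Type*} [Group G] [Finite G]

theorem det_gal {χ : G → ℂ} (hχ : IsCharacter G χ) (σ : ℂ →+* ℂ) (g : G) :
    detChar (fun g => σ (χ g)) g = σ (detChar χ g) := by
  obtain ⟨n, ρ, rfl⟩ := hχ
  let F : Module.End ℂ (Fin n → ℂ) →* Module.End ℂ (Fin n → ℂ) :=
    (Matrix.toLinAlgEquiv' (R := ℂ) (n := Fin n)).toMonoidHom.comp
      ((σ.mapMatrix (m := Fin n)).toMonoidHom.comp
        (LinearMap.toMatrixAlgEquiv' (R := ℂ) (n := Fin n)).toMonoidHom)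
  have e : Representation.character (F.comp ρ : Representation ℂ G (Fin n → ℂ)) =
      fun g => σ (ρ.character g) := funext fun g => by
    change LinearMap.trace ℂ _ (Matrix.toLin' ((LinearMap.toMatrix' (ρ g)).map σ)) =
      σ (LinearMap.trace ℂ _ (ρ g))
    rw [Matrix.trace_toLin'_eq, ← AddMonoidHom.map_trace, ← Matrix.trace_toLin'_eq,
      Matrix.toLin'_toMatrix']
  rw [← e, detChar_rep_apply, detChar_rep_apply]
  change LinearMap.det (Matrix.toLin' (σ.mapMatrix (LinearMap.toMatrix' (ρ g)))) = _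
  rw [LinearMap.det_toLin', ← RingHom.map_det, LinearMap.det_toMatrix']

theorem gen (χ : IrrCharacter G) : IsGeneralizedCharacter G (χ : G → ℂ) :=
  χ.2.isCharacter.isGeneralizedCharacter

theorem deg (σ : ℂ ≃+* ℂ) (χ : IrrCharacter G) :
    charDegree ((galoisPerm G σ χ : IrrCharacter G) : G → ℂ) = charDegree (χ : G → ℂ) := by
  unfold charDegree
  rw [galoisPerm_apply]
  exact congrArg (fun z : ℂ => ⌊z.re⌋₊) ((gen χ).ringHom_apply_one σ.toRingHom)

theorem comm (σ τ : ℂ ≃+* ℂ) (χ : IrrCharacter G) :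
    galoisPerm G σ (galoisPerm G τ χ) = galoisPerm G τ (galoisPerm G σ χ) := by
  obtain ⟨m, -, hm⟩ := exists_pow_ringHom_char G σ.toRingHom
  obtain ⟨n, -, hn⟩ := exists_pow_ringHom_char G τ.toRingHom
  refine Subtype.ext (funext fun g => ?_)
  simp only [galoisPerm_apply]
  have a := hm _ (gen χ)
  have b := hn _ (gen χ)
  simp only [RingEquiv.toRingHom_eq_coe, RingHom.coe_coe] at a b
  rw [a, b, a, b, ← pow_mul, ← pow_mul, mul_comm]

/-- The principal character. -/
def o (G : Type*) [Group G] : IrrCharacter G := ⟨fun _ => 1, isIrrCharacter_one⟩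

theorem go (σ : ℂ ≃+* ℂ) : galoisPerm G σ (o G) = o G :=
  Subtype.ext (funext fun g => (galoisPerm_apply σ _ g).trans (map_one σ))

theorem deg1 {χ : IrrCharacter G} (h : (χ : G → ℂ) 1 = 1) : charDegree (χ : G → ℂ) = 1 := by
  have := Block.irr_charDegree_cast χ
  rw [h] at this
  exact_mod_cast this

theorem core {δ : ℂ} {d : ℤ} (hd : δ ^ 2 = d) (h3 : d % 4 = 3)
    (hσ : ∀ σ : ℂ ≃+* ℂ, (∀ χ : IrrCharacter G, ¬ 2 ∣ charDegree (χ : G → ℂ) →
      ∀ g, σ ((χ : G → ℂ) g) = (χ : G → ℂ) g) → σ δ = δ)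
    {x y z : IrrCharacter G}
    (all : ∀ χ : IrrCharacter G, ¬ 2 ∣ charDegree (χ : G → ℂ) ↔ χ = o G ∨ χ = x ∨ χ = y ∨ χ = z)
    (ox : o G ≠ x) (oy : o G ≠ y) (oz : o G ≠ z) (xy : x ≠ y) (xz : x ≠ z) (yz : y ≠ z)
    {τ : ℂ ≃+* ℂ} (hτ : τ δ = -δ) (fx : galoisPerm G τ x = x) (fy : galoisPerm G τ y = z)
    (fz : galoisPerm G τ z = y) (χ : IrrCharacter G) (hχ : ¬ 2 ∣ charDegree (χ : G → ℂ)) :
    charDegree (χ : G → ℂ) = 1 := by
  classical
  have dx := (all x).2 (.inr (.inl rfl))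
  have dy := (all y).2 (.inr (.inr (.inl rfl)))
  have dz := (all z).2 (.inr (.inr (.inr rfl)))
  have eyz : charDegree (z : G → ℂ) = charDegree (y : G → ℂ) := by rw [← fy, deg]
  have iδ : IsIntegral ℤ δ := IsIntegral.of_pow two_pos (hd ▸ isIntegral_algebraMap (x := d))
  have fix : ∀ σ : ℂ ≃+* ℂ, galoisPerm G σ x = x → galoisPerm G σ y = y → galoisPerm G σ z = z →
      σ δ = δ := fun σ h1 h2 h3 => hσ σ fun χ hχ g => by
    rw [← galoisPerm_apply]
    rcases (all χ).1 hχ with rfl | rfl | rfl | rfl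
    · rw [go]
    · rw [h1]
    · rw [h2]
    · rw [h3]
  have sx : ∀ σ : ℂ ≃+* ℂ, galoisPerm G σ x = x := fun σ => by
    have e : galoisPerm G τ (galoisPerm G σ x) = galoisPerm G σ x := by rw [comm, fx]
    rcases (all (galoisPerm G σ x)).1 (by rw [deg]; exact dx) with h | h | h | h
    · exact absurd ((galoisPerm G σ).injective ((go σ).trans h.symm)) ox
    · exact h
    · rw [h, fy] at e; exact absurd e.symm yz
    · rw [h, fz] at e; exact absurd e yz
  have sy : ∀ σ : ℂ ≃+* ℂ, ((∀ g, σ ((y : G → ℂ) g) = (y : G → ℂ) g) ∧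
      (∀ g, σ ((z : G → ℂ) g) = (z : G → ℂ) g) ∧ σ δ = δ) ∨
      ((∀ g, σ ((y : G → ℂ) g) = (z : G → ℂ) g) ∧
      (∀ g, σ ((z : G → ℂ) g) = (y : G → ℂ) g) ∧ σ δ = -δ) := fun σ => by
    have e : galoisPerm G σ z = galoisPerm G τ (galoisPerm G σ y) := by rw [comm, fy]
    simp only [← galoisPerm_apply]
    rcases (all (galoisPerm G σ y)).1 (by rw [deg]; exact dy) with h | h | h | h
    · exact absurd ((galoisPerm G σ).injective ((go σ).trans h.symm)) oy
    · exact absurd ((galoisPerm G σ).injective ((sx σ).trans h.symm)) xy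
    · rw [h, fy] at e
      exact .inl ⟨fun g => by rw [h], fun g => by rw [e], fix σ (sx σ) h e⟩
    · rw [h, fz] at e
      refine .inr ⟨fun g => by rw [h], fun g => by rw [e], τ.injective ?_⟩
      have tr : ∀ χ : IrrCharacter G, galoisPerm G (σ.trans τ) χ = galoisPerm G τ (galoisPerm G σ χ) :=
        fun χ => Subtype.ext (funext fun g => by simp only [galoisPerm_apply, RingEquiv.trans_apply])
      rw [map_neg, hτ, neg_neg]
      exact fix (σ.trans τ) (sx _) (by rw [tr, h, fz]) (by rw [tr, e, fy])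
  have ix : ∀ g, ∃ c : ℤ, (x : G → ℂ) g = c := fun g =>
    exists_int_of_forall_ringEquiv ((gen x).isIntegral g) fun σ => by rw [← galoisPerm_apply, sx]
  have it : ∀ g, ∃ t : ℤ, (y : G → ℂ) g + (z : G → ℂ) g = 2 * t := fun g => by
    have iy := (gen y).isIntegral g
    have iz := (gen z).isIntegral g
    obtain ⟨t, ht⟩ := exists_int_of_forall_ringEquiv (iy.add iz) fun σ => by
      rcases sy σ with ⟨a, b, -⟩ | ⟨a, b, -⟩
      · rw [map_add, a, b]
      · rw [map_add, a, b, add_comm]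
    obtain ⟨N, hN⟩ := exists_int_of_forall_ringEquiv (iy.mul iz) fun σ => by
      rcases sy σ with ⟨a, b, -⟩ | ⟨a, b, -⟩
      · rw [map_mul, a, b]
      · rw [map_mul, a, b, mul_comm]
    obtain ⟨a, ha⟩ := exists_int_of_forall_ringEquiv ((iy.sub iz).mul iδ) fun σ => by
      rcases sy σ with ⟨a, b, c⟩ | ⟨a, b, c⟩
      · rw [map_mul, map_sub, a, b, c]
      · rw [map_mul, map_sub, a, b, c]; ring
    have e : (a : ℂ) ^ 2 = ((t : ℂ) ^ 2 - 4 * N) * d := by
      rw [← ha, ← ht, ← hN, ← hd]; ring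
    obtain ⟨s, rfl⟩ := even (a := a) (t := t) (N := N) h3 (by exact_mod_cast e)
    exact ⟨s, by rw [ht]; push_cast; ring⟩
  have nz : ∀ g, (x : G → ℂ) g ≠ 0 := fun g h0 => by
    by_cases g1 : g = 1
    · have := Block.irr_charDegree_cast x
      rw [← g1, h0, Nat.cast_eq_zero] at this
      exact dx (this ▸ dvd_zero 2)
    have s := sum_irr_degree_mul g
    rw [if_neg g1, ← Finset.sum_add_sum_compl {o G, x, y, z},
      Finset.sum_insert (by simp [ox, oy, oz]), Finset.sum_insert (by simp [xy, xz]),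
      Finset.sum_pair yz, h0, ← Block.irr_charDegree_cast y, ← Block.irr_charDegree_cast z, eyz] at s
    obtain ⟨t, ht⟩ := it g
    have iw : IsIntegral ℤ (∑ ψ ∈ ({o G, x, y, z} : Finset (IrrCharacter G))ᶜ,
        ((charDegree (ψ : G → ℂ) / 2 : ℕ) : ℂ) * (ψ : G → ℂ) g) :=
      IsIntegral.sum _ fun ψ _ => (isIntegral_algebraMap (x := ((charDegree (ψ : G → ℂ) / 2 : ℕ) : ℤ))).mul
        ((gen ψ).isIntegral g)
    have ew : ∑ ψ ∈ ({o G, x, y, z} : Finset (IrrCharacter G))ᶜ, (ψ : G → ℂ) 1 * (ψ : G → ℂ) g =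
        2 * ∑ ψ ∈ ({o G, x, y, z} : Finset (IrrCharacter G))ᶜ,
          ((charDegree (ψ : G → ℂ) / 2 : ℕ) : ℂ) * (ψ : G → ℂ) g := by
      rw [Finset.mul_sum]
      refine Finset.sum_congr rfl fun ψ hψ => ?_
      have : 2 ∣ charDegree (ψ : G → ℂ) := by
        by_contra k
        exact Finset.mem_compl.1 hψ (by simpa using (all ψ).1 k)
      obtain ⟨k, hk⟩ := this
      rw [← Block.irr_charDegree_cast ψ, hk, Nat.mul_div_cancel_left _ two_pos]
      push_cast; ring
    rw [ew] at s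
    refine half (iw.add ((isIntegral_algebraMap (x := (charDegree (y : G → ℂ) : ℤ))).mul
      (isIntegral_algebraMap (x := t)))).neg ?_
    change (1 : ℂ) * 1 + _ + _ = _ at s
    simp only [algebraMap_int_eq, eq_intCast, Int.cast_natCast]
    linear_combination -s + (charDegree (y : G → ℂ) : ℂ) * ht
  have x1 : (x : G → ℂ) 1 = 1 := by
    by_contra k
    obtain ⟨g, hg⟩ := irr_exists_eq_zero x.2 k
    exact nz g hg
  obtain ⟨lam, hl⟩ := x.2.isCharacter.exists_monoidHom_of_apply_one x1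
  have sq : ∀ g, (lam g : ℂ) ^ charDegree (y : G → ℂ) = lam g := fun g => by
    obtain ⟨a, ha⟩ := ix g
    obtain ⟨b, hb⟩ := ix g⁻¹
    rw [hl] at ha hb
    have ha' : (lam g : ℂ) = a := ha
    have hb' : (lam g⁻¹ : ℂ) = b := hb
    have : (a : ℂ) * b = 1 := by rw [← ha', ← hb', ← Units.val_mul, ← map_mul, mul_inv_cancel, map_one]; rfl
    have od : Odd (charDegree (y : G → ℂ)) := Nat.odd_iff.2 (by omega)
    rcases Int.eq_one_or_neg_one_of_mul_eq_one (show a * b = 1 by exact_mod_cast this) with rfl | rfl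
    · rw [ha']; simp
    · rw [ha']; simpa using od.neg_one_pow
  have l1 : ¬ ∀ g, (lam g : ℂ) = 1 := fun h => ox (Subtype.ext (hl.trans (funext h)).symm)
  have y1 : charDegree (y : G → ℂ) = 1 := by
    let ψ : IrrCharacter G := ⟨_, y.2.mul_monoidHom lam⟩
    have dψ : charDegree (ψ : G → ℂ) = charDegree (y : G → ℂ) := by
      unfold charDegree
      simp [ψ]
    have dt : ∀ g, detChar (ψ : G → ℂ) g = detChar (y : G → ℂ) g * lam g := fun g => by
      rw [← sq g]
      exact detChar_mul_monoidHom y.2.isCharacter (Block.irr_charDegree_cast y).symm lam g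
    rcases (all ψ).1 (dψ ▸ dy) with h | h | h | h
    · rw [← dψ, h]; exact deg1 rfl
    · rw [← dψ, h]; exact deg1 x1
    · rw [h] at dt
      exact absurd (fun g => (mul_eq_left₀ (detChar_ne_zero _ g)).1 (dt g).symm) l1
    · rw [h] at dt
      let μ : IrrCharacter G := ⟨_, isIrrCharacter_detChar (y : G → ℂ)⟩
      have dμ : charDegree (μ : G → ℂ) = 1 := deg1 (detChar_map_one _)
      have mv : galoisPerm G τ μ ≠ μ := fun e => l1 fun g => by
        have e1 : τ (detChar (y : G → ℂ) g) = detChar (y : G → ℂ) g :=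
          (galoisPerm_apply τ μ g).symm.trans (by rw [e])
        have e2 := det_gal y.2.isCharacter τ.toRingHom g
        have e3 : (fun g => τ.toRingHom ((y : G → ℂ) g)) = (z : G → ℂ) :=
          funext fun g => by rw [← fy, galoisPerm_apply]; rfl
        rw [e3, dt] at e2
        exact (mul_eq_left₀ (detChar_ne_zero _ g)).1 (e2.trans e1)
      rcases (all μ).1 (by rw [dμ]; decide) with k | k | k | k
      · exact absurd (by rw [k, go]) mv
      · exact absurd (by rw [k, fx]) mv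
      · rw [← k, dμ]
      · rw [← eyz, ← k, dμ]
  rcases (all χ).1 hχ with rfl | rfl | rfl | rfl
  · exact deg1 rfl
  · exact deg1 x1
  · exact y1
  · exact eyz.trans y1

end Lin

open Lin

theorem lin {G : Type*} [Group G] [Finite G]
    (h4 : Nat.card {χ : IrrCharacter G // ¬ 2 ∣ charDegree (χ : G → ℂ)} = 4) {δ : ℂ} {d : ℤ}
    (hd : δ ^ 2 = d) (h3 : d % 4 = 3)
    (hσ : ∀ σ : ℂ ≃+* ℂ, (∀ χ : IrrCharacter G, ¬ 2 ∣ charDegree (χ : G → ℂ) →
      ∀ g, σ ((χ : G → ℂ) g) = (χ : G → ℂ) g) → σ δ = δ)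
    (χ : IrrCharacter G) (hχ : ¬ 2 ∣ charDegree (χ : G → ℂ)) : charDegree (χ : G → ℂ) = 1 := by
  classical
  have iδ : IsIntegral ℤ δ := IsIntegral.of_pow two_pos (hd ▸ isIntegral_algebraMap (x := d))
  have nint : ¬ ∀ σ : ℂ ≃+* ℂ, σ δ = δ := fun h => by
    obtain ⟨n, rfl⟩ := exists_int_of_forall_ringEquiv iδ h
    have := even (a := n) (t := 1) (N := 0) h3 (by
      have : n ^ 2 = d := by exact_mod_cast hd
      rw [this]; ring)
    omega
  obtain ⟨τ, hτ⟩ := not_forall.1 nint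
  have hτ' : τ δ = -δ := (sq_eq_sq_iff_eq_or_eq_neg.1
    (show τ δ ^ 2 = δ ^ 2 by rw [← map_pow, hd, map_intCast])).resolve_left hτ
  let S : Finset (IrrCharacter G) := Finset.univ.filter fun χ => ¬ 2 ∣ charDegree (χ : G → ℂ)
  have cS : S.card = 4 := by
    rw [← h4, Nat.card_eq_fintype_card, Fintype.card_subtype]
  have oS : o G ∈ S := Finset.mem_filter.2 ⟨Finset.mem_univ _, by rw [deg1 (χ := o G) rfl]; decide⟩
  obtain ⟨x, y, z, xy, xz, yz, e⟩ := Finset.card_eq_three.1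
    (show (S.erase (o G)).card = 3 by rw [Finset.card_erase_of_mem oS, cS])
  have mem : ∀ χ : IrrCharacter G, (χ ≠ o G ∧ ¬ 2 ∣ charDegree (χ : G → ℂ)) ↔
      χ = x ∨ χ = y ∨ χ = z := fun χ => by
    have := Finset.ext_iff.1 e χ
    simpa [S] using this
  have all : ∀ χ : IrrCharacter G, ¬ 2 ∣ charDegree (χ : G → ℂ) ↔
      χ = o G ∨ χ = x ∨ χ = y ∨ χ = z := fun χ => by
    rw [← mem]
    refine ⟨fun h => (em (χ = o G)).imp_right fun k => ⟨k, h⟩, ?_⟩
    rintro (rfl | h)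
    · exact (Finset.mem_filter.1 oS).2
    · exact h.2
  have hx := (mem x).2 (.inl rfl)
  have hy := (mem y).2 (.inr (.inl rfl))
  have hz := (mem z).2 (.inr (.inr rfl))
  have im : ∀ χ : IrrCharacter G, (χ ≠ o G ∧ ¬ 2 ∣ charDegree (χ : G → ℂ)) →
      galoisPerm G τ χ = x ∨ galoisPerm G τ χ = y ∨ galoisPerm G τ χ = z := fun χ h =>
    (mem _).1 ⟨fun k => h.1 ((galoisPerm G τ).injective (k.trans (go τ).symm)), by rw [deg]; exact h.2⟩
  have n3 : ¬ (galoisPerm G τ (galoisPerm G τ (galoisPerm G τ x)) = x ∧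
      galoisPerm G τ (galoisPerm G τ (galoisPerm G τ y)) = y ∧
      galoisPerm G τ (galoisPerm G τ (galoisPerm G τ z)) = z) := fun ⟨a, b, c⟩ => by
    have := hσ ((τ.trans τ).trans τ) fun χ hχ g => by
      simp only [RingEquiv.trans_apply, ← galoisPerm_apply]
      rcases (all χ).1 hχ with rfl | rfl | rfl | rfl
      · rw [go, go, go]
      · rw [a]
      · rw [b]
      · rw [c]
    simp only [RingEquiv.trans_apply, hτ', map_neg, neg_neg] at this
    exact hτ (hτ'.trans this)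
  rcases tri (galoisPerm G τ).injective xy xz yz (im x hx) (im y hy) (im z hz) n3 with
    ⟨a, b, c⟩ | ⟨a, b, c⟩ | ⟨a, b, c⟩
  · exact core hd h3 hσ all hx.1.symm hy.1.symm hz.1.symm xy xz yz hτ' a b c χ hχ
  · exact core hd h3 hσ (fun χ => (all χ).trans (by tauto)) hy.1.symm hx.1.symm hz.1.symm xy.symm yz xz
      hτ' a b c χ hχ
  · exact core hd h3 hσ (fun χ => (all χ).trans (by tauto)) hz.1.symm hx.1.symm hy.1.symm xz.symm yz.symm
      xy hτ' a b c χ hχ

end Cfsg.Lib.OD4
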